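import Mathlib
import Cfsg.Agent.Lib.Helper5.CS4.Defs
import Cfsg.Agent.Lib.Helper46.CS4.E1

set_option autoImplicit false

/-! CS4 (S4146) package [NCS] (helper46). -/

namespace Cfsg.Agent.Lib.Helper46.CS4

open Cfsg.Agent.Lib.Helper5.CS4

universe u

/-- an element outside a subgroup has a power of prime power order outside the subgroup. -/
theorem pp_not_mem {G : Type u} [Group G] [Finite G] (U : Subgroup G) :
    ∀ (N : ℕ) (x : G), orderOf x = N → x ∉ U →
      ∃ (i p k : ℕ), p.Prime ∧ orderOf (x ^ i) = p ^ k ∧ x ^ i ∉ U := by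
  intro N
  induction N using Nat.strong_induction_on with
  | _ N IH =>
    intro x hxN hxU
    have hx1 : orderOf x ≠ 1 := by
      intro h
      rw [orderOf_eq_one_iff] at h
      exact hxU (h ▸ U.one_mem)
    obtain ⟨t, ht, htd⟩ := Nat.exists_prime_and_dvd hx1
    obtain ⟨a, b, hd, ⟨i, hi⟩, hc⟩ := prim_decomp x t ht
    by_cases ha : x ^ a ∈ U
    · have hb : x ^ b ∉ U := by
        intro hb
        apply hxU
        rw [hd]
        exact U.mul_mem ha hb
      have hlt : orderOf (x ^ b) < N := by
        have hdvd : orderOf (x ^ b) ∣ orderOf x := orderOf_pow_dvd b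
        have hle := Nat.le_of_dvd (orderOf_pos x) hdvd
        rcases Nat.lt_or_ge (orderOf (x ^ b)) (orderOf x) with h | h
        · rw [← hxN]; exact h
        · exfalso
          have heq : orderOf (x ^ b) = orderOf x := le_antisymm hle h
          rw [heq] at hc
          exact ht.ne_one (Nat.Coprime.eq_one_of_dvd hc.symm htd)
      obtain ⟨i', p, k', hp, ho, hn⟩ := IH _ hlt (x ^ b) rfl hb
      refine ⟨b * i', p, k', hp, ?_, ?_⟩
      · rw [pow_mul]; exact ho
      · rw [pow_mul]; exact hn
    · exact ⟨a, t, i, ht, hi, ha⟩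

/-- [NCS] -/
theorem pkgNcs (hCop : PkgCop.{u}) : PkgNcs.{u} := by
  intro G _ _ n q e U a₀ st hE1 hCU hex w hwU hcw x' hx'w
  obtain ⟨x, t, k, ht, htq, hox, hcx⟩ := hex
  have hn1 : 1 < n := st.ctx.1
  have hm1 : 1 < q ^ e := st.ctx.2.1
  have hnm : n.Coprime (q ^ e) := st.ctx.2.2.1
  have hq := st.hq
  have hq0 : 0 < q ^ e := by omega
  have he0 : e ≠ 0 := by
    rintro rfl
    simp at hm1
  have hqe : q ∣ q ^ e := dvd_pow_self q he0
  have hrange : ∀ z : G, cidx z = 1 ∨ cidx z = n ∨ cidx z = q ^ e ∨ cidx z = n * q ^ e := by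
    intro z
    have hz : cidx z ∈ ({1, n, q ^ e, n * q ^ e} : Set ℕ) := by
      rw [← st.ctx.2.2.2]; exact ⟨z, rfl⟩
    simpa only [Set.mem_insert_iff, Set.mem_singleton_iff] using hz
  have pw : ∀ (g y : G) (a : ℕ), g * y = y * g → g ^ a * y = y * g ^ a := fun g y a hg =>
    (Commute.pow_left (show Commute g y from hg) a).eq
  have pw' : ∀ (g y : G) (a : ℕ), g * y = y * g → g * y ^ a = y ^ a * g := fun g y a hg =>
    (Commute.pow_right (show Commute g y from hg) a).eq
  obtain ⟨a, b, hd, ⟨i, hi⟩, hc⟩ := prim_decomp x' q hq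
  have hwq : (orderOf w).Coprime q := ((st.U_iff w).mp hwU).2
  by_cases hvU : x' ^ b ∈ U
  · -- Case A: the `q'`-part of `x'` lies in `U`
    have hN : Subgroup.centralizer ({w} : Set G) ≤ Subgroup.centralizer (U : Set G) := by
      have hNle : Subgroup.centralizer (U : Set G) ≤ Subgroup.centralizer ({w} : Set G) :=
        Subgroup.centralizer_le (Set.singleton_subset_iff.mpr hwU)
      have hEN : Subgroup.centralizer ({x} : Set G) ≤ Subgroup.centralizer (U : Set G) := by
        intro g hg
        rw [Subgroup.mem_centralizer_iff]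
        intro u hu
        have hxu : x * u = u * x := hCU x (by
          rw [hox]; exact Nat.Coprime.pow_left k ((Nat.coprime_primes ht hq).mpr htq)) u hu
        exact (hE1 x t k ht htq hox hcx g u (Subgroup.mem_centralizer_singleton_iff.mp hg)
          hxu.symm).symm
      have hd1 : (Subgroup.centralizer (U : Set G)).index ∣ n * q ^ e := by
        have := Subgroup.index_dvd_of_le hEN
        rwa [show (Subgroup.centralizer ({x} : Set G)).index = n * q ^ e from hcx] at this
      have hrp : ∀ r : ℕ, r.Prime → r ≠ q → ¬ r ∣ (Subgroup.centralizer (U : Set G)).index := by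
        intro r hr hrq hdvd
        have : Fact r.Prime := ⟨hr⟩
        obtain ⟨R⟩ : Nonempty (Sylow r G) := inferInstance
        have hR : (R : Subgroup G) ≤ Subgroup.centralizer (U : Set G) := by
          intro y hy
          rw [Subgroup.mem_centralizer_iff]
          intro u hu
          obtain ⟨k', hk'⟩ := IsPGroup.iff_orderOf.mp R.isPGroup' ⟨y, hy⟩
          rw [Subgroup.orderOf_mk] at hk'
          exact (hCU y (by
            rw [hk']; exact Nat.Coprime.pow_left k' ((Nat.coprime_primes hr hq).mpr hrq)) u hu).symm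
        exact R.not_dvd_index (hdvd.trans (Subgroup.index_dvd_of_le hR))
      have hcopn : ((Subgroup.centralizer (U : Set G)).index).Coprime n := by
        rw [Nat.Coprime, Nat.eq_one_iff_not_exists_prime_dvd]
        intro r hr hdvd
        have h1 : r ∣ (Subgroup.centralizer (U : Set G)).index := hdvd.trans (Nat.gcd_dvd_left _ _)
        have h2 : r ∣ n := hdvd.trans (Nat.gcd_dvd_right _ _)
        apply hrp r hr _ h1
        rintro rfl
        have h3 := Nat.dvd_gcd h2 hqe
        rw [Nat.Coprime.gcd_eq_one hnm] at h3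
        exact hq.one_lt.ne' (Nat.dvd_one.mp h3)
      have hd2 : (Subgroup.centralizer (U : Set G)).index ∣ q ^ e :=
        Nat.Coprime.dvd_of_dvd_mul_left hcopn hd1
      have hrel := Subgroup.relIndex_mul_index hNle
      rw [show (Subgroup.centralizer ({w} : Set G)).index = q ^ e from hcw] at hrel
      have heq : (Subgroup.centralizer (U : Set G)).index = q ^ e :=
        Nat.dvd_antisymm hd2 (Dvd.intro_left _ hrel)
      rw [heq] at hrel
      have h1 : (Subgroup.centralizer (U : Set G)).relIndex
          (Subgroup.centralizer ({w} : Set G)) = 1 :=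
        Nat.eq_of_mul_eq_mul_right hq0 (by rw [hrel, one_mul])
      exact Subgroup.relIndex_eq_one.mp h1
    have hinf : Subgroup.centralizer ({x'} : Set G) ⊓ Subgroup.centralizer ({w} : Set G) =
        Subgroup.centralizer ({x' ^ a} : Set G) ⊓ Subgroup.centralizer ({w} : Set G) := by
      ext g
      simp only [Subgroup.mem_inf, Subgroup.mem_centralizer_singleton_iff]
      constructor
      · rintro ⟨h1, h2⟩
        exact ⟨pw' g x' a h1, h2⟩
      · rintro ⟨h1, h2⟩
        refine ⟨?_, h2⟩
        have hgv : g * x' ^ b = x' ^ b * g := by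
          have h3 := hN (Subgroup.mem_centralizer_singleton_iff.mpr h2)
          rw [Subgroup.mem_centralizer_iff] at h3
          exact (h3 _ hvU).symm
        have c1 : Commute g (x' ^ a) := h1
        have c2 : Commute g (x' ^ b) := hgv
        have c3 := c1.mul_right c2
        rw [← hd] at c3
        exact c3
    have hrelEq : (Subgroup.centralizer ({x'} : Set G)).relIndex
        (Subgroup.centralizer ({w} : Set G)) =
        (Subgroup.centralizer ({x' ^ a} : Set G)).relIndex
          (Subgroup.centralizer ({w} : Set G)) := by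
      rw [← Subgroup.inf_relIndex_right (Subgroup.centralizer ({x'} : Set G)), hinf,
        Subgroup.inf_relIndex_right]
    rw [hrelEq]
    have hws : w * x' ^ a = x' ^ a * w := (pw x' w a hx'w).symm
    have hco : (orderOf w).Coprime (orderOf (x' ^ a)) := by
      rw [hi]; exact Nat.Coprime.pow_right i hwq
    have hC := hCop w (x' ^ a) hws hco
    have hle : Subgroup.centralizer ({w * x' ^ a} : Set G) ≤
        Subgroup.centralizer ({w} : Set G) := by
      rw [hC]; exact inf_le_left
    have hdvd : q ^ e ∣ cidx (w * x' ^ a) := by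
      have := Subgroup.index_dvd_of_le hle
      rwa [show (Subgroup.centralizer ({w} : Set G)).index = q ^ e from hcw] at this
    have hrel := Subgroup.relIndex_mul_index hle
    rw [hC, Subgroup.inf_relIndex_left, ← hC,
      show (Subgroup.centralizer ({w} : Set G)).index = q ^ e from hcw] at hrel
    rcases hrange (w * x' ^ a) with c1 | c2 | c3 | c4
    · rw [c1] at hdvd
      have := Nat.dvd_one.mp hdvd
      omega
    · rw [c2] at hdvd
      have := Nat.Coprime.eq_one_of_dvd hnm.symm hdvd
      omega
    · left
      rw [show (Subgroup.centralizer ({w * x' ^ a} : Set G)).index = q ^ e from c3] at hrel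
      exact Nat.eq_of_mul_eq_mul_right hq0 (by rw [hrel, one_mul])
    · right
      rw [show (Subgroup.centralizer ({w * x' ^ a} : Set G)).index = n * q ^ e from c4] at hrel
      exact Nat.eq_of_mul_eq_mul_right hq0 hrel
  · -- Case B: some primary part of the `q'`-part of `x'` lies outside `U`
    obtain ⟨i', p, k', hp, ho, hzU⟩ := pp_not_mem U _ (x' ^ b) rfl hvU
    obtain ⟨z, hz⟩ : ∃ z : G, z = (x' ^ b) ^ i' := ⟨_, rfl⟩
    rw [← hz] at ho hzU
    have hzx : z = x' ^ (b * i') := by rw [hz, pow_mul]
    have hzq : (orderOf z).Coprime q := by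
      rw [hz]
      exact Nat.Coprime.coprime_dvd_left (orderOf_pow_dvd i') hc
    have hpq : p ≠ q := by
      rintro rfl
      rw [ho] at hzq
      have hk0 : k' = 0 := by
        by_contra hk
        exact hp.ne_one (Nat.Coprime.eq_one_of_dvd hzq.symm (dvd_pow_self p hk))
      rw [hk0, pow_zero, orderOf_eq_one_iff] at ho
      exact hzU (ho ▸ U.one_mem)
    have hcz : cidx z = n * q ^ e := by
      rcases hrange z with c1 | c2 | c3 | c4
      · exact absurd ((st.U_iff z).mpr ⟨Or.inl c1, hzq⟩) hzU
      · exact absurd (st.hTn z p k' hp ho c2) hpq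
      · exact absurd ((st.U_iff z).mpr ⟨Or.inr c3, hzq⟩) hzU
      · exact c4
    have hab := hE1 z p k' hp hpq ho hcz
    have hx'z : x' * z = z * x' := by
      rw [hzx]; exact (Commute.pow_right (Commute.refl x') _).eq
    have hwz : w * z = z * w := by
      rw [hzx]; exact (pw x' w _ hx'w).symm
    have hCeq : Subgroup.centralizer ({x'} : Set G) = Subgroup.centralizer ({z} : Set G) := by
      apply le_antisymm
      · intro g hg
        rw [Subgroup.mem_centralizer_singleton_iff] at hg ⊢
        rw [hzx]; exact pw' g x' _ hg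
      · intro g hg
        rw [Subgroup.mem_centralizer_singleton_iff] at hg ⊢
        exact hab g x' hg hx'z
    have hle : Subgroup.centralizer ({z} : Set G) ≤ Subgroup.centralizer ({w} : Set G) := by
      intro g hg
      rw [Subgroup.mem_centralizer_singleton_iff] at hg ⊢
      exact hab g w hg hwz
    right
    rw [hCeq]
    have hrel := Subgroup.relIndex_mul_index hle
    rw [show (Subgroup.centralizer ({w} : Set G)).index = q ^ e from hcw,
      show (Subgroup.centralizer ({z} : Set G)).index = n * q ^ e from hcz] at hrel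
    exact Nat.eq_of_mul_eq_mul_right hq0 hrel
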